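import Cfsg.Agent.OD.Pre
import Cfsg.Agent.H6.TCTop
import Cfsg.Agent.H6.LT15.C
set_option autoImplicit false
set_option maxRecDepth 100000
set_option Elab.async false
set_option linter.all false
namespace CfH6.LT15
open CfH6
theorem p0 : C.OkL 256 1408 := C.okL_of 256 9 0 1408 (by decide) (by decide +kernel)
theorem p1 : C.OkL 1408 2432 := C.okL_of 1408 8 0 2432 (by decide) (by decide +kernel)
theorem p2 : C.OkL 2432 3328 := C.okL_of 2432 7 0 3328 (by decide) (by decide +kernel)
theorem p3 : C.OkL 3328 4224 := C.okL_of 3328 7 0 4224 (by decide) (by decide +kernel)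
theorem p4 : C.OkL 4224 5120 := C.okL_of 4224 7 0 5120 (by decide) (by decide +kernel)
theorem p5 : C.OkL 5120 6016 := C.okL_of 5120 7 0 6016 (by decide) (by decide +kernel)
theorem p6 : C.OkL 6016 6912 := C.okL_of 6016 7 0 6912 (by decide) (by decide +kernel)
theorem p7 : C.OkL 6912 7808 := C.okL_of 6912 7 0 7808 (by decide) (by decide +kernel)
theorem p8 : C.OkL 7808 8704 := C.okL_of 7808 7 0 8704 (by decide) (by decide +kernel)
theorem p9 : C.OkL 8704 9600 := C.okL_of 8704 7 0 9600 (by decide) (by decide +kernel)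
theorem p10 : C.OkL 9600 10496 := C.okL_of 9600 7 0 10496 (by decide) (by decide +kernel)
theorem p11 : C.OkL 10496 11392 := C.okL_of 10496 7 0 11392 (by decide) (by decide +kernel)
theorem p12 : C.OkL 11392 12160 := C.okL_of 11392 6 0 12160 (by decide) (by decide +kernel)
theorem p13 : C.OkL 12160 12928 := C.okL_of 12160 6 0 12928 (by decide) (by decide +kernel)
theorem p14 : C.OkL 12928 13696 := C.okL_of 12928 6 0 13696 (by decide) (by decide +kernel)
theorem p15 : C.OkL 13696 14464 := C.okL_of 13696 6 0 14464 (by decide) (by decide +kernel)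
theorem p16 : C.OkL 14464 15232 := C.okL_of 14464 6 0 15232 (by decide) (by decide +kernel)
theorem p17 : C.OkL 15232 16000 := C.okL_of 15232 6 0 16000 (by decide) (by decide +kernel)
theorem p18 : C.OkL 16000 16768 := C.okL_of 16000 6 0 16768 (by decide) (by decide +kernel)
end CfH6.LT15
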