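import Cfsg.Agent.OD.Pre
import Cfsg.Agent.H6.TCTop
import Cfsg.Agent.H6.LT15.C
set_option autoImplicit false
set_option maxRecDepth 100000
set_option Elab.async false
set_option linter.all false
namespace CfH6.LT15
open CfH6
theorem p19 : C.OkL 16768 17536 := C.okL_of 16768 6 0 17536 (by decide) (by decide +kernel)
theorem p20 : C.OkL 17536 18304 := C.okL_of 17536 6 0 18304 (by decide) (by decide +kernel)
theorem p21 : C.OkL 18304 19072 := C.okL_of 18304 6 0 19072 (by decide) (by decide +kernel)
theorem p22 : C.OkL 19072 19712 := C.okL_of 19072 5 0 19712 (by decide) (by decide +kernel)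
theorem p23 : C.OkL 19712 20352 := C.okL_of 19712 5 0 20352 (by decide) (by decide +kernel)
theorem p24 : C.OkL 20352 20992 := C.okL_of 20352 5 0 20992 (by decide) (by decide +kernel)
theorem p25 : C.OkL 20992 21632 := C.okL_of 20992 5 0 21632 (by decide) (by decide +kernel)
theorem p26 : C.OkL 21632 22272 := C.okL_of 21632 5 0 22272 (by decide) (by decide +kernel)
theorem p27 : C.OkL 22272 22531 := C.okL_of 22272 2 3 22531 (by decide) (by decide +kernel)
theorem p28 : C.OkR 22531 24451 := C.okR_of 22531 15 0 24451 (by decide) (by decide +kernel)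
theorem p29 : C.OkR 24451 26243 := C.okR_of 24451 14 0 26243 (by decide) (by decide +kernel)
theorem p30 : C.OkR 26243 28291 := C.okR_of 26243 16 0 28291 (by decide) (by decide +kernel)
theorem p31 : C.OkR 28291 30211 := C.okR_of 28291 15 0 30211 (by decide) (by decide +kernel)
theorem p32 : C.OkR 30211 31875 := C.okR_of 30211 13 0 31875 (by decide) (by decide +kernel)
theorem p33 : C.OkR 31875 33411 := C.okR_of 31875 12 0 33411 (by decide) (by decide +kernel)
theorem p34 : C.OkR 33411 35203 := C.okR_of 33411 14 0 35203 (by decide) (by decide +kernel)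
theorem p35 : C.OkR 35203 36739 := C.okR_of 35203 12 0 36739 (by decide) (by decide +kernel)
theorem p36 : C.OkR 36739 38275 := C.okR_of 36739 12 0 38275 (by decide) (by decide +kernel)
theorem p37 : C.OkR 38275 39939 := C.okR_of 38275 13 0 39939 (by decide) (by decide +kernel)
theorem p38 : C.OkR 39939 41731 := C.okR_of 39939 14 0 41731 (by decide) (by decide +kernel)
end CfH6.LT15
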