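import Cfsg.Agent.OD.Pre
import Cfsg.Agent.H6.TCTop
import Cfsg.Agent.H6.LT15.C
set_option autoImplicit false
set_option maxRecDepth 100000
set_option Elab.async false
set_option linter.all false
namespace CfH6.LT15
open CfH6
theorem p39 : C.OkR 41731 43523 := C.okR_of 41731 14 0 43523 (by decide) (by decide +kernel)
theorem p40 : C.OkR 43523 45443 := C.okR_of 43523 15 0 45443 (by decide) (by decide +kernel)
theorem p41 : C.OkR 45443 47363 := C.okR_of 45443 15 0 47363 (by decide) (by decide +kernel)
theorem p42 : C.OkR 47363 49283 := C.okR_of 47363 15 0 49283 (by decide) (by decide +kernel)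
theorem p43 : C.OkR 49283 51203 := C.okR_of 49283 15 0 51203 (by decide) (by decide +kernel)
theorem p44 : C.OkR 51203 53123 := C.okR_of 51203 15 0 53123 (by decide) (by decide +kernel)
theorem p45 : C.OkR 53123 54788 := C.okR_of 53123 13 1 54788 (by decide) (by decide +kernel)
end CfH6.LT15
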